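import Mathlib.RingTheory.MvPolynomial.Homogeneous
import Mathlib.RingTheory.IntegralClosure.Algebra.Basic
import Mathlib.RingTheory.FiniteType
import Mathlib.RingTheory.Adjoin.FG
import Mathlib.Algebra.MvPolynomial.CommRing

/-!
# Algebra behind descending finite type along a blow-up

`A` is an `R`-algebra, `c_j` finitely many elements of `A`, and for each `j` a ring map `φ_j : A → A_j` such that `A_j`
is of finite type over `R`, every element of `A_j` is a fraction `x / c_j ^ n` with `x ∈ (c) ^ n` and the kernel of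
`φ_j` is `c_j`-power torsion. Then there is a subalgebra `B ⊆ A` of finite type over `R` containing the `c_j` such
that for all `a ∈ A` and all `j` some `c_j ^ n * a` lies in `(c)_B ^ n`; for `A` a domain, `A` is integral over `B`.
-/

set_option autoImplicit false

namespace Groth.Agent.Models.H69.ArtinTate

section Integral

variable {B A : Type*} [CommRing B] [CommRing A] [Algebra B A] {ι : Type*} [Fintype ι] (c : ι → B)

/-- If `c_j ^ n * a ∈ J ^ n` for all `j`, `J = (c)`, then `a` is integral over `B`. -/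
theorem isIntegral_of_forall [IsDomain A] (a : A) (n : ι → ℕ) (d : ι → B)
    (hd : ∀ j, d j ∈ Ideal.span (Set.range c) ^ n j)
    (h : ∀ j, algebraMap B A (c j) ^ n j * a = algebraMap B A (d j))
    (hne : ∃ j, algebraMap B A (c j) ≠ 0) : IsIntegral B a := by
  classical
  let J : Ideal B := Ideal.span (Set.range c)
  let N : ℕ := ∑ j, n j + 1
  let M : Submodule B A := Submodule.map (Algebra.linearMap B A) (J ^ N)
  have hJfg : (J ^ N).FG := by
    apply Ideal.FG.pow
    exact Submodule.fg_span (Set.finite_range c)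
  have hMfg : M.FG := Submodule.FG.map (Algebra.linearMap B A) hJfg
  have hMne : M ≠ ⊥ := by
    obtain ⟨j, hj⟩ := hne
    intro h0
    have h1 : Algebra.linearMap B A (c j ^ N) ∈ M :=
      ⟨c j ^ N, Ideal.pow_mem_pow (Ideal.subset_span (Set.mem_range_self j)) N, rfl⟩
    rw [h0, Submodule.mem_bot, Algebra.linearMap_apply, map_pow] at h1
    exact hj (pow_eq_zero_iff (Nat.succ_ne_zero _) |>.1 h1)
  refine isIntegral_of_smul_mem_submodule (M := A) M hMne hMfg a ?_
  rintro _ ⟨z, hz, rfl⟩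
  have hz' : z ∈ Ideal.span (Set.range c) ^ N := hz
  rw [Ideal.mem_span_pow_iff_exists_isHomogeneous] at hz'
  obtain ⟨p, hp, rfl⟩ := hz'
  -- it suffices to treat monomials
  rw [MvPolynomial.eval_eq, map_sum, Finset.smul_sum]
  refine Submodule.sum_mem _ fun s hs => ?_
  have hdeg : ∑ j, s j = N := by
    have h1 := hp (MvPolynomial.mem_support_iff.1 hs)
    rw [← h1, Finsupp.weight_apply, Finsupp.sum_fintype _ _ (by simp)]
    simp
  obtain ⟨j, hj⟩ : ∃ j, n j ≤ s j := by
    by_contra hcon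
    push Not at hcon
    have h2 : ∑ j, s j ≤ ∑ j, n j := Finset.sum_le_sum fun j _ => (hcon j).le
    omega
  have hprod : (∏ i ∈ s.support, c i ^ s i) = c j ^ n j * (c j ^ (s j - n j) * ∏ i ∈ Finset.univ.erase j, c i ^ s i) := by
    have h3 : (∏ i ∈ s.support, c i ^ s i) = ∏ i, c i ^ s i := by
      refine Finset.prod_subset (Finset.subset_univ _) fun i _ hi => ?_
      rw [Finsupp.notMem_support_iff.1 hi, pow_zero]
    rw [h3, ← Finset.mul_prod_erase Finset.univ _ (Finset.mem_univ j), ← mul_assoc, ← pow_add,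
      Nat.add_sub_cancel' hj]
  let e : B := c j ^ (s j - n j) * ∏ i ∈ Finset.univ.erase j, c i ^ s i
  have he : e ∈ J ^ (N - n j) := by
    have h4 : N - n j = (s j - n j) + ∑ i ∈ Finset.univ.erase j, s i := by
      have := Finset.add_sum_erase Finset.univ (fun i => s i) (Finset.mem_univ j)
      omega
    rw [h4, pow_add]
    refine Ideal.mul_mem_mul (Ideal.pow_mem_pow (Ideal.subset_span (Set.mem_range_self j)) _) ?_
    rw [← Finset.prod_pow_eq_pow_sum]
    exact Ideal.prod_mem_prod fun i _ => Ideal.pow_mem_pow (Ideal.subset_span (Set.mem_range_self i)) _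
  refine ⟨MvPolynomial.coeff s p * (d j * e), ?_, ?_⟩
  · refine Ideal.mul_mem_left _ _ ?_
    have h5 : N = n j + (N - n j) := by
      have h6 : n j ≤ ∑ i, n i := Finset.single_le_sum (fun i _ => Nat.zero_le _) (Finset.mem_univ j)
      omega
    rw [h5, pow_add]
    exact Ideal.mul_mem_mul (hd j) he
  · change algebraMap B A _ = a • algebraMap B A _
    rw [hprod, smul_eq_mul]
    change algebraMap B A (MvPolynomial.coeff s p * (d j * e)) =
      a * algebraMap B A (MvPolynomial.coeff s p * (c j ^ n j * e))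
    have h7 := h j
    simp only [map_mul, map_pow, ← h7]
    ring

end Integral

section Subalgebra

variable {R A : Type*} [CommRing R] [CommRing A] [Algebra R A] {ι : Type*} [Fintype ι] (c : ι → A)

/-- The finite type subalgebra. -/
theorem exists_subalgebra {Aj : ι → Type*} [∀ j, CommRing (Aj j)] (φ : ∀ j, A →+* Aj j)
    (hft : ∀ j, ((φ j).comp (algebraMap R A)).FiniteType)
    (hfrac : ∀ j (z : Aj j), ∃ (n : ℕ) (x : A), x ∈ Ideal.span (Set.range c) ^ n ∧
      φ j (c j) ^ n * z = φ j x)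
    (hker : ∀ j (x : A), φ j x = 0 → ∃ k : ℕ, c j ^ k * x = 0) :
    ∃ (B : Subalgebra R A) (c' : ι → B), B.FG ∧ (∀ j, (c' j : A) = c j) ∧
      ∀ (a : A) (j : ι), ∃ (n : ℕ) (d : B), d ∈ Ideal.span (Set.range c') ^ n ∧ c j ^ n * a = d := by
  classical
  -- generators of the charts
  have h1 : ∀ j, ∃ G : Finset (Aj j), ∀ z : Aj j,
      z ∈ @Algebra.adjoin R (Aj j) _ _ ((φ j).comp (algebraMap R A)).toAlgebra (G : Set (Aj j)) := by
    intro j
    let _ : Algebra R (Aj j) := ((φ j).comp (algebraMap R A)).toAlgebra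
    obtain ⟨G, hG⟩ := (hft j : Algebra.FiniteType R (Aj j)).out
    refine ⟨G, fun z => ?_⟩
    change z ∈ Algebra.adjoin R (G : Set (Aj j))
    rw [hG]; trivial
  choose G hG using h1
  choose nn x hx hxe using hfrac
  have h2 : ∀ j (z : Aj j), ∃ p : MvPolynomial ι A, p.IsHomogeneous (nn j z) ∧ p.eval c = x j z := by
    intro j z
    exact (Ideal.mem_span_pow_iff_exists_isHomogeneous c (x j z)).1 (hx j z)
  choose p hp hpe using h2
  let T : Finset A := Finset.univ.image c ∪
    Finset.univ.biUnion fun j => (G j).biUnion fun z => (p j z).coeffs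
  let B : Subalgebra R A := Algebra.adjoin R (T : Set A)
  have hTB : ∀ t ∈ T, t ∈ B := fun t ht => Algebra.subset_adjoin ht
  have hcB : ∀ j, c j ∈ B := fun j => hTB _ (Finset.mem_union_left _
    (Finset.mem_image_of_mem c (Finset.mem_univ j)))
  let c' : ι → B := fun j => ⟨c j, hcB j⟩
  have hcoeff : ∀ j, ∀ z ∈ G j, ∀ s, (p j z).coeff s ∈ B := by
    intro j z hz s
    by_cases hs : (p j z).coeff s = 0
    · rw [hs]; exact B.zero_mem
    · refine hTB _ (Finset.mem_union_right _ ?_)
      refine Finset.mem_biUnion.2 ⟨j, Finset.mem_univ j, Finset.mem_biUnion.2 ⟨z, hz, ?_⟩⟩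
      exact MvPolynomial.coeff_mem_coeffs _ hs
  -- the fractions over `B`
  have key : ∀ j (z : Aj j), ∃ (n : ℕ) (d : B), d ∈ Ideal.span (Set.range c') ^ n ∧
      φ j (c j) ^ n * z = φ j d := by
    intro j z
    let _ : Algebra R (Aj j) := ((φ j).comp (algebraMap R A)).toAlgebra
    refine Algebra.adjoin_induction (p := fun z _ => ∃ (n : ℕ) (d : B),
      d ∈ Ideal.span (Set.range c') ^ n ∧ φ j (c j) ^ n * z = φ j d) ?_ ?_ ?_ ?_ (hG j z)
    · intro z hz
      refine ⟨nn j z, ⟨x j z, ?_⟩, ?_, hxe j z⟩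
      · rw [← hpe, MvPolynomial.eval_eq]
        exact B.sum_mem fun s _ => B.mul_mem (hcoeff j z hz s)
          (B.prod_mem fun i _ => B.pow_mem (hcB i) _)
      · rw [Ideal.mem_span_pow_iff_exists_isHomogeneous]
        obtain ⟨q, hq⟩ : ∃ q : MvPolynomial ι B, MvPolynomial.map (algebraMap B A) q = p j z := by
          rw [← Set.mem_range, MvPolynomial.mem_range_map_iff_coeffs_subset]
          intro t ht
          obtain ⟨s, hs, rfl⟩ := MvPolynomial.mem_coeffs_iff.1 (Finset.mem_coe.1 ht)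
          exact ⟨⟨_, hcoeff j z hz s⟩, rfl⟩
        refine ⟨q, ?_, ?_⟩
        · refine MvPolynomial.IsHomogeneous.of_map (f := algebraMap B A) Subtype.val_injective ?_
          rw [hq]; exact hp j z
        · apply Subtype.ext
          change algebraMap B A (MvPolynomial.eval c' q) = x j z
          rw [← hpe, ← hq, MvPolynomial.map_eval]
          rfl
    · intro r
      refine ⟨0, algebraMap R B r, by simp, ?_⟩
      rw [pow_zero, one_mul]
      rfl
    · rintro z w _ _ ⟨n₁, d₁, h₁, e₁⟩ ⟨n₂, d₂, h₂, e₂⟩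
      refine ⟨n₁ + n₂, c' j ^ n₂ * d₁ + c' j ^ n₁ * d₂, ?_, ?_⟩
      · apply Ideal.add_mem
        · rw [add_comm n₁ n₂, pow_add]
          exact Ideal.mul_mem_mul (Ideal.pow_mem_pow (Ideal.subset_span (Set.mem_range_self j)) _) h₁
        · rw [pow_add]
          exact Ideal.mul_mem_mul (Ideal.pow_mem_pow (Ideal.subset_span (Set.mem_range_self j)) _) h₂
      · have e3 : ((c' j ^ n₂ * d₁ + c' j ^ n₁ * d₂ : B) : A) = c j ^ n₂ * d₁ + c j ^ n₁ * d₂ := rfl
        rw [e3, map_add, map_mul, map_mul, ← e₁, ← e₂, map_pow, map_pow]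
        ring
    · rintro z w _ _ ⟨n₁, d₁, h₁, e₁⟩ ⟨n₂, d₂, h₂, e₂⟩
      refine ⟨n₁ + n₂, d₁ * d₂, ?_, ?_⟩
      · rw [pow_add]
        exact Ideal.mul_mem_mul h₁ h₂
      · have e3 : ((d₁ * d₂ : B) : A) = d₁ * d₂ := rfl
        rw [e3, map_mul, ← e₁, ← e₂]
        ring
  refine ⟨B, c', ⟨T, rfl⟩, fun j => rfl, fun a j => ?_⟩
  obtain ⟨n, d, hd, he⟩ := key j (φ j a)
  obtain ⟨k, hk⟩ := hker j (c j ^ n * a - d) (by rw [map_sub, map_mul, map_pow, he, sub_self])
  refine ⟨k + n, c' j ^ k * d, ?_, ?_⟩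
  · rw [pow_add]
    exact Ideal.mul_mem_mul (Ideal.pow_mem_pow (Ideal.subset_span (Set.mem_range_self j)) _) hd
  · have e3 : ((c' j ^ k * d : B) : A) = c j ^ k * d := rfl
    rw [e3, pow_add, mul_assoc]
    rw [mul_sub, sub_eq_zero] at hk
    exact hk

/-- For a domain `A` with some `c_j ≠ 0`: `A` is integral over a finite type subalgebra containing the `c_j`. -/
theorem exists_subalgebra_isIntegral [IsDomain A] {Aj : ι → Type*} [∀ j, CommRing (Aj j)]
    (φ : ∀ j, A →+* Aj j)
    (hft : ∀ j, ((φ j).comp (algebraMap R A)).FiniteType)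
    (hfrac : ∀ j (z : Aj j), ∃ (n : ℕ) (x : A), x ∈ Ideal.span (Set.range c) ^ n ∧
      φ j (c j) ^ n * z = φ j x)
    (hker : ∀ j (x : A), φ j x = 0 → ∃ k : ℕ, c j ^ k * x = 0) (hne : ∃ j, c j ≠ 0) :
    ∃ B : Subalgebra R A, B.FG ∧ (algebraMap B A).IsIntegral := by
  obtain ⟨B, c', hB, hc, h⟩ := exists_subalgebra c φ hft hfrac hker
  refine ⟨B, hB, fun a => ?_⟩
  choose n d hd he using h a
  refine isIntegral_of_forall c' a n d hd (fun j => ?_) ?_
  · have : algebraMap B A (c' j) = c j := hc j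
    rw [this]
    exact he j
  · obtain ⟨j, hj⟩ := hne
    exact ⟨j, by
      have : algebraMap B A (c' j) = c j := hc j
      rwa [this]⟩

end Subalgebra

end Groth.Agent.Models.H69.ArtinTate
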