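import Groth.Agent.Dix.ExcCurve
import Groth.Agent.Dix.ContractSurf
import Groth.Agent.Dix.VertGeom
import Groth.Agent.CohqA.ProjDim
import Groth.Agent.S1682

/-!
# Contractions: basic facts

`b : X ⟶ X'` is the blow-up of `X'` in a closed point `y` with `O_{X',y}` regular of dimension two.
* `isIso_compl`: `b` is an isomorphism over `X' \ {y}`.
* `isIso_stalkMap`, `injOn`: consequences.
* `ker_eq`: an integral closed subscheme `E` of dimension `≥ 1` with `b(E) = {y}` is the exceptional divisor.
* `range_eq`: `E = b⁻¹(y)`.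
* `isIntegral_target`: `X'` is integral if `X` is integral and `b` is surjective.
-/

set_option autoImplicit false
universe u

open CategoryTheory CategoryTheory.Limits AlgebraicGeometry

namespace Groth.Agent.Models.H69.Contr

open Groth.Agent.Dix.PointIdeal Groth.Agent.Dix.VertGeom

section Ker

/-- A closed subscheme `Y₁` integral of dimension `≥ 1` inside an integral closed subscheme `Y₂` of dimension `≤ 1`. -/
lemma ker_eq_of_mem' {X Y₁ Y₂ : Scheme.{u}} (i₁ : Y₁ ⟶ X) (i₂ : Y₂ ⟶ X) [IsClosedImmersion i₁]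
    [IsClosedImmersion i₂] [IsIntegral Y₁] [IsIntegral Y₂]
    (h₁ : 1 ≤ topologicalKrullDim Y₁) (h₂ : topologicalKrullDim Y₂ ≤ 1)
    (h : i₁ (genericPoint Y₁) ∈ i₂.ker.support) : i₁.ker = i₂.ker := by
  have hle : i₂.ker ≤ i₁.ker := (le_ker_iff i₁ i₂.ker).2 h
  have hsub : ∀ y, ∃ z, i₂ z = i₁ y := by
    intro y
    have h3 : i₁ y ∈ i₁.ker.support := (mem_support_ker_iff i₁ _).2 ⟨y, rfl⟩
    have h4 : i₁ y ∈ i₂.ker.support := Scheme.IdealSheafData.support_antitone hle h3
    exact (mem_support_ker_iff i₂ _).1 h4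
  choose g hg using hsub
  have hcomp : i₂ ∘ g = i₁ := funext hg
  have hcont : Continuous g := by
    rw [i₂.isClosedEmbedding.isEmbedding.continuous_iff, hcomp]
    exact i₁.continuous
  have hind : Topology.IsInducing g := by
    refine Topology.IsInducing.of_comp hcont i₂.continuous ?_
    rw [hcomp]
    exact i₁.isClosedEmbedding.isInducing
  have hrange : Set.range g = i₂ ⁻¹' (Set.range i₁) := by
    ext z
    constructor
    · rintro ⟨y, rfl⟩
      exact ⟨y, (hg y).symm⟩
    · rintro ⟨y, hy⟩
      exact ⟨y, i₂.isClosedEmbedding.injective ((hg y).trans hy)⟩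
  have hcl : IsClosed (Set.range g) := by
    rw [hrange]
    exact i₁.isClosedEmbedding.isClosed_range.preimage i₂.continuous
  have hsurj := surjective_of_dim g hind hcl h₁ h₂
  refine le_antisymm ?_ hle
  rw [le_ker_iff i₂]
  obtain ⟨y, hy⟩ := hsurj (genericPoint Y₂)
  rw [← hy, mem_support_ker_iff]
  exact ⟨y, (hg y).symm⟩

end Ker

variable {X X' : Scheme.{u}} (b : X ⟶ X') (y : X') (hy : IsClosed ({y} : Set X'))

/-- The complement of the closed point. -/
abbrev compl : X'.Opens := ⟨{y}ᶜ, hy.isOpen_compl⟩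

lemma support_pt_compl : (pt y hy).support.compl = compl y hy := by
  ext z
  change z ∉ ((pt y hy).support : Set X') ↔ z ∉ ({y} : Set X')
  rw [SetLike.mem_coe, mem_support_pt]
  rfl

variable {b}

/-- The blow-up is an isomorphism away from the point. -/
theorem isIso_compl (hb : BlowUp.IsBlowUp b (pt y hy)) : IsIso (b ∣_ compl y hy) := by
  have h := Groth.Agent.S1682.result (pt y hy) b hb
  rwa [support_pt_compl] at h

variable {y} {hy}

lemma mem_compl_iff {z : X'} : z ∈ compl y hy ↔ z ≠ y := Iff.rfl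

theorem isIso_stalkMap (hb : BlowUp.IsBlowUp b (pt y hy)) (x : X) (hx : b x ≠ y) :
    IsIso (b.stalkMap x) := by
  have := isIso_compl y hy hb
  exact Dix.ContractSurf.isIso_stalkMap b (compl y hy) x hx

theorem eq_of_apply_eq (hb : BlowUp.IsBlowUp b (pt y hy)) (x₁ x₂ : X) (hx : b x₁ ≠ y) (h : b x₁ = b x₂) :
    x₁ = x₂ := by
  have := isIso_compl y hy hb
  have hx₂ : x₂ ∈ b ⁻¹ᵁ compl y hy := by
    change b x₂ ≠ y
    rw [← h]
    exact hx
  have h1 : (b ∣_ compl y hy) ⟨x₁, hx⟩ = (b ∣_ compl y hy) ⟨x₂, hx₂⟩ := by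
    apply (compl y hy).ι.isOpenEmbedding.injective
    rw [← Scheme.Hom.comp_apply, ← Scheme.Hom.comp_apply, morphismRestrict_ι, Scheme.Hom.comp_apply,
      Scheme.Hom.comp_apply]
    exact h
  have h2 := (b ∣_ compl y hy).homeomorph.injective h1
  exact congrArg Subtype.val h2

theorem exists_apply_eq (hb : BlowUp.IsBlowUp b (pt y hy)) (z : X') (hz : z ≠ y) : ∃ x, b x = z := by
  have := isIso_compl y hy hb
  obtain ⟨x, hx⟩ := (b ∣_ compl y hy).homeomorph.surjective ⟨z, hz⟩
  refine ⟨x.1, ?_⟩
  have h2 : (compl y hy).ι ((b ∣_ compl y hy) x) = z := congrArg Subtype.val hx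
  rw [← Scheme.Hom.comp_apply, morphismRestrict_ι, Scheme.Hom.comp_apply] at h2
  exact h2

theorem surjective (hb : BlowUp.IsBlowUp b (pt y hy)) (h : ∃ x, b x = y) : Surjective b := by
  refine ⟨fun z => ?_⟩
  by_cases hz : z = y
  · rw [hz]; exact h
  · exact exists_apply_eq hb z hz

/-- The target of the contraction is integral. -/
theorem isIntegral_target (hb : BlowUp.IsBlowUp b (pt y hy)) [IsIntegral X] [Surjective b]
    (hdom : IsDomain (X'.presheaf.stalk y)) : IsIntegral X' := by
  have h1 : IrreducibleSpace X' := by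
    have h2 : IsIrreducible (Set.range b) := by
      rw [← Set.image_univ]
      exact (IrreducibleSpace.isIrreducible_univ X).image b b.continuous.continuousOn
    rw [b.surjective.range_eq] at h2
    exact (irreducibleSpace_def X').2 h2
  have h3 : IsReduced X' := by
    have : ∀ z : X', _root_.IsReduced (X'.presheaf.stalk z) := by
      intro z
      by_cases hz : z = y
      · subst hz; infer_instance
      · obtain ⟨x, rfl⟩ := exists_apply_eq hb z hz
        have := isIso_stalkMap hb x hz
        exact isReduced_of_injective _ (asIso (b.stalkMap x)).commRingCatIsoToRingEquiv.injective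
    exact isReduced_of_isReduced_stalk _
  exact isIntegral_of_irreducibleSpace_of_isReduced _

variable {E : Scheme.{u}} (ι : E ⟶ X) [IsClosedImmersion ι] [IsIntegral E]

/-- The contracted curve is the exceptional divisor. -/
theorem ker_eq (hb : BlowUp.IsBlowUp b (pt y hy)) (hreg : IsRegularLocalRing (X'.presheaf.stalk y))
    (hdim : ringKrullDim (X'.presheaf.stalk y) = 2) (hE : 1 ≤ topologicalKrullDim E)
    (hrange : Set.range (ι ≫ b) = {y}) : ι.ker = (pt y hy).comap b := by
  obtain ⟨i, hi, hik, -⟩ := Dix.ExcCurve.exists_curve b y hy hdim hb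
  rw [← hik]
  let _ : Field (X'.presheaf.stalk y ⧸ IsLocalRing.maximalIdeal (X'.presheaf.stalk y)) :=
    Ideal.Quotient.field _
  have h1 : IsIntegral (CohB1.ProjSpace 1 (X'.presheaf.stalk y ⧸
      IsLocalRing.maximalIdeal (X'.presheaf.stalk y))) := inferInstance
  refine ker_eq_of_mem' ι i hE (CohqA.ProjDim.topologicalKrullDim_le _ 1) ?_
  rw [hik, Scheme.IdealSheafData.support_comap]
  change b (ι (genericPoint E)) ∈ (pt y hy).support
  rw [mem_support_pt, ← Scheme.Hom.comp_apply, ← Set.mem_singleton_iff, ← hrange]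
  exact ⟨_, rfl⟩

/-- The contracted curve is the fibre over the point. -/
theorem range_eq (hb : BlowUp.IsBlowUp b (pt y hy)) (hreg : IsRegularLocalRing (X'.presheaf.stalk y))
    (hdim : ringKrullDim (X'.presheaf.stalk y) = 2) (hE : 1 ≤ topologicalKrullDim E)
    (hrange : Set.range (ι ≫ b) = {y}) : Set.range ι = b ⁻¹' {y} := by
  ext x
  rw [← mem_support_ker_iff, ker_eq ι hb hreg hdim hE hrange, Scheme.IdealSheafData.support_comap]
  exact mem_support_pt y hy (b x)

end Groth.Agent.Models.H69.Contr
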