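import Groth.Agent.Models.H69.Contr
import Groth.Agent.Models.H71.Comps
import Groth.Agent.Models.H43.MultPos
import Groth.Agent.CycB.OrdFrac
import Mathlib.RingTheory.Ideal.KrullsHeightTheorem

/-!
# Components and multiplicities of the closed fibre of a contraction

Let `b : X ⟶ X'` be the blow-up of a closed point `y` of `X'` with regular two-dimensional local ring, over the
discrete valuation ring `R`; `Γ_0, …, Γ_n` the components of the closed fibre of `X`, `Γ_n = b⁻¹(y)`.
* `fibreComponents_eq`: the components of the closed fibre of `X'` are the images of `Γ_i`, `i < n`;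
* `genPtOf_eq`, `mult_eq`: generic points and multiplicities.
-/

set_option autoImplicit false
universe u

open CategoryTheory CategoryTheory.Limits AlgebraicGeometry

namespace Groth.Agent.Models.H69.ContrComps

open Groth.Agent.Dix.PointIdeal Groth.Agent.Models.H69.Contr Groth.Agent.Models.H71.Comps

section Stalk

variable {R : Type u} [CommRing R] [IsDomain R] [IsDiscreteValuationRing R]
  {X X' : Scheme.{u}} {p : X ⟶ Spec (CommRingCat.of R)} {p' : X' ⟶ Spec (CommRingCat.of R)} {b : X ⟶ X'}

/-- Compatibility of the maps `R → O` with a morphism over `R`. -/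
theorem stalkHom_comp (hcomm : b ≫ p' = p) (x : X) :
    (b.stalkMap x).hom.comp (Models.stalkHom R (Over.mk p') (b x)) = Models.stalkHom R (Over.mk p) x := by
  have h1 : Spec.map (CommRingCat.ofHom (Models.stalkHom R (Over.mk p') (b x)) ≫ b.stalkMap x) =
      Spec.map (CommRingCat.ofHom (Models.stalkHom R (Over.mk p) x)) := by
    rw [Spec.map_comp, H43.MultPos.specMap_stalkHom R (Over.mk p') (b x),
      H43.MultPos.specMap_stalkHom R (Over.mk p) x]
    change Spec.map (b.stalkMap x) ≫ X'.fromSpecStalk (b x) ≫ p' = X.fromSpecStalk x ≫ p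
    rw [← hcomm, Scheme.SpecMap_stalkMap_fromSpecStalk_assoc]
  exact congrArg CommRingCat.Hom.hom (Spec.map_injective h1)

/-- The length at a point of `O / 𝔪_R O`. -/
noncomputable def multAt (X : Over (Spec (CommRingCat.of R))) (x : X.left) : ℕ :=
  (Module.length (X.left.presheaf.stalk x)
    (X.left.presheaf.stalk x ⧸ Ideal.map (Models.stalkHom R X x) (IsLocalRing.maximalIdeal R))).toNat

theorem multAt_eq (hcomm : b ≫ p' = p) (x : X) [IsIso (b.stalkMap x)] :
    multAt (Over.mk p') (b x) = multAt (Over.mk p) x := by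
  let e : X'.presheaf.stalk (b x) ≃+* X.presheaf.stalk x := (asIso (b.stalkMap x)).commRingCatIsoToRingEquiv
  unfold multAt
  congr 1
  refine CycB.OrdFrac.length_quotient_ringEquiv e _ _ ?_
  rw [Ideal.map_map]
  congr 1
  exact (stalkHom_comp hcomm x).symm

end Stalk

section Top

variable {T : Type*} [TopologicalSpace T]

/-- An irreducible set inside a finite union of closed sets is inside one of them. -/
lemma exists_subset_of_finite {n : ℕ} (Z : Fin n → Set T) (hZ : ∀ i, IsClosed (Z i)) (S : Set T)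
    (hS : IsIrreducible S) (h : S ⊆ ⋃ i, Z i) : ∃ i, S ⊆ Z i := by
  classical
  have h1 := isIrreducible_iff_sUnion_isClosed.1 hS (Finset.univ.image Z) (by
    intro z hz
    obtain ⟨i, -, rfl⟩ := Finset.mem_image.1 hz
    exact hZ i) (by
    intro x hx
    obtain ⟨i, hi⟩ := Set.mem_iUnion.1 (h hx)
    exact Set.mem_sUnion.2 ⟨Z i, by simp, hi⟩)
  obtain ⟨z, hz, hSz⟩ := h1
  obtain ⟨i, -, rfl⟩ := Finset.mem_image.1 hz
  exact ⟨i, hSz⟩

end Top

section Comps

variable {R : Type u} [CommRing R] [IsDomain R] [IsDiscreteValuationRing R]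
  {X X' : Scheme.{u}} {p : X ⟶ Spec (CommRingCat.of R)} {p' : X' ⟶ Spec (CommRingCat.of R)} {b : X ⟶ X'}
  {y : X'} {hy : IsClosed ({y} : Set X')}

/-- A point of the closed fibre with local ring of dimension `≥ 2` has a proper generization in the closed fibre. -/
theorem exists_generization (p' : X' ⟶ Spec (CommRingCat.of R)) (y : X')
    [IsNoetherianRing (X'.presheaf.stalk y)]
    (hdim : 1 < ringKrullDim (X'.presheaf.stalk y)) (hyp : p' y = IsLocalRing.closedPoint R) :
    ∃ z : X', z ⤳ y ∧ z ≠ y ∧ p' z = IsLocalRing.closedPoint R := by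
  obtain ⟨ϖ, hϖ⟩ := IsDiscreteValuationRing.exists_irreducible R
  let O := X'.presheaf.stalk y
  let t : O := Models.stalkHom R (Over.mk p') y ϖ
  have hmem : ∀ q : PrimeSpectrum O, X'.fromSpecStalk y q ∈ Models.specialFibreSet R (Over.mk p') ↔
      t ∈ q.asIdeal := by
    intro q
    have h0 := H43.MultPos.map_le_iff R (Over.mk p') y q
    rw [hϖ.maximalIdeal_eq, Ideal.map_span, Set.image_singleton, Ideal.span_singleton_le_iff_mem] at h0
    exact h0.symm
  have ht : t ∈ IsLocalRing.maximalIdeal O := by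
    have := (hmem (IsLocalRing.closedPoint O)).1 (by
      rw [Scheme.fromSpecStalk_closedPoint]
      exact hyp)
    exact this
  have hne : Ideal.span {t} ≠ ⊤ := by
    intro h
    have : Ideal.span {t} ≤ IsLocalRing.maximalIdeal O := by
      rw [Ideal.span_singleton_le_iff_mem]; exact ht
    rw [h, top_le_iff] at this
    exact (IsLocalRing.maximalIdeal.isMaximal O).ne_top this
  obtain ⟨q, hq⟩ := Ideal.nonempty_minimalPrimes hne
  have hqp : q.IsPrime := hq.1.1
  have hq1 : q.height ≤ 1 := Ideal.height_le_one_of_isPrincipal_of_mem_minimalPrimes _ _ hq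
  have hqm : q ≠ IsLocalRing.maximalIdeal O := by
    rintro rfl
    rw [← IsLocalRing.maximalIdeal_height_eq_ringKrullDim] at hdim
    have h2 : ((IsLocalRing.maximalIdeal O).height : WithBot ℕ∞) ≤ 1 := by exact_mod_cast hq1
    exact absurd hdim (not_lt.2 h2)
  refine ⟨X'.fromSpecStalk y ⟨q, hqp⟩, ?_, ?_, ?_⟩
  · have h3 : (⟨q, hqp⟩ : PrimeSpectrum O) ⤳ IsLocalRing.closedPoint O := IsLocalRing.specializes_closedPoint _
    have h4 := h3.map (X'.fromSpecStalk y).continuous
    rwa [Scheme.fromSpecStalk_closedPoint] at h4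
  · intro h
    apply hqm
    have h5 : X'.fromSpecStalk y ⟨q, hqp⟩ = X'.fromSpecStalk y (IsLocalRing.closedPoint O) := by
      rw [h, Scheme.fromSpecStalk_closedPoint]
    have h6 := CycB.LocQuot.fromSpecStalk_injective _ h5
    exact congrArg PrimeSpectrum.asIdeal h6
  · have := (hmem ⟨q, hqp⟩).2 (hq.1.2 (Ideal.mem_span_singleton_self t))
    exact this

variable {n : ℕ} {Γ : Fin (n + 1) → ArSurf.VertComp R (Over.mk p)}

/-- the set of a component, as a subset of `X`. -/
abbrev rs (Γ : ArSurf.VertComp R (Over.mk p)) : Set X := Set.range (Γ.ι.base : Γ.curve.left → X)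

lemma isClosed_image (hbp : IsProper b) (Δ : ArSurf.VertComp R (Over.mk p)) : IsClosed (b.base '' rs Δ) :=
  b.isClosedMap _ (isClosed_rg Δ)

lemma isIrreducible_image (Δ : ArSurf.VertComp R (Over.mk p)) : IsIrreducible (b.base '' rs Δ) :=
  (isIrreducible_rg Δ).image _ b.continuous.continuousOn

lemma image_subset (hcomm : b ≫ p' = p) (Δ : ArSurf.VertComp R (Over.mk p)) :
    b.base '' rs Δ ⊆ Models.specialFibreSet R (Over.mk p') := by
  rintro _ ⟨x, hx, rfl⟩
  have h1 : p x = IsLocalRing.closedPoint R := rg_subset Δ hx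
  rw [← hcomm] at h1
  exact h1

lemma apply_genPtOf_ne (hΓ : Models.IsComponentList R (Over.mk p) Γ)
    (hE : rs (Γ (Fin.last n)) = b ⁻¹' {y}) (i : Fin n) :
    b (Models.genPtOf R (Over.mk p) (Γ i.castSucc)) ≠ y := by
  intro h
  have h1 : Models.genPtOf R (Over.mk p) (Γ i.castSucc) ∈ rs (Γ (Fin.last n)) := by
    rw [hE]; exact h
  exact (Fin.castSucc_lt_last i).ne ((genPtOf_mem_iff hΓ).1 h1)

lemma eq_of_image_subset (hb : BlowUp.IsBlowUp b (pt y hy)) (hΓ : Models.IsComponentList R (Over.mk p) Γ)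
    (hE : rs (Γ (Fin.last n)) = b ⁻¹' {y}) {i j : Fin n}
    (h : b.base '' rs (Γ i.castSucc) ⊆ b.base '' rs (Γ j.castSucc)) : i = j := by
  obtain ⟨w, hw, hbw⟩ := h ⟨_, genPtOf_mem (Γ i.castSucc), rfl⟩
  have h1 := eq_of_apply_eq hb _ w (apply_genPtOf_ne hΓ hE i) hbw.symm
  have h2 : Models.genPtOf R (Over.mk p) (Γ i.castSucc) ∈ rs (Γ j.castSucc) := by
    rw [h1]; exact hw
  exact Fin.castSucc_injective n ((genPtOf_mem_iff hΓ).1 h2)

/-- The images of the components other than the contracted one cover the closed fibre. -/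
lemma specialFibreSet_subset (hcomm : b ≫ p' = p) (hbp : IsProper b) (hb : BlowUp.IsBlowUp b (pt y hy))
    (hyn : IsNoetherianRing (X'.presheaf.stalk y)) (hdim : ringKrullDim (X'.presheaf.stalk y) = 2)
    (hyp : p' y = IsLocalRing.closedPoint R)
    (hΓ : Models.IsComponentList R (Over.mk p) Γ) (hE : rs (Γ (Fin.last n)) = b ⁻¹' {y}) :
    Models.specialFibreSet R (Over.mk p') ⊆ ⋃ i : Fin n, b.base '' rs (Γ i.castSucc) := by
  have key : ∀ z : X', z ≠ y → z ∈ Models.specialFibreSet R (Over.mk p') →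
      z ∈ ⋃ i : Fin n, b.base '' rs (Γ i.castSucc) := by
    intro z hz hz'
    obtain ⟨x, rfl⟩ := exists_apply_eq hb z hz
    have h1 : x ∈ Models.specialFibreSet R (Over.mk p) := by
      change p x = IsLocalRing.closedPoint R
      rw [← hcomm]
      exact hz'
    obtain ⟨i, hi⟩ := (mem_specialFibreSet_iff hΓ x).1 h1
    rcases Fin.eq_castSucc_or_eq_last i with ⟨i, rfl⟩ | rfl
    · exact Set.mem_iUnion.2 ⟨i, x, hi, rfl⟩
    · exfalso
      have hi' : x ∈ rs (Γ (Fin.last n)) := hi
      rw [hE] at hi'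
      exact hz hi'
  intro z hz
  by_cases hzy : z = y
  · subst hzy
    obtain ⟨w, hw, hwy, hwp⟩ := exists_generization p' z (by rw [hdim]; norm_num) hyp
    obtain ⟨i, hi⟩ := Set.mem_iUnion.1 (key w hwy hwp)
    exact Set.mem_iUnion.2 ⟨i, hw.mem_closed (isClosed_image hbp _) hi⟩
  · exact key z hzy hz

/-- **The components of the closed fibre of the contraction.** -/
theorem fibreComponents_eq (hcomm : b ≫ p' = p) (hbp : IsProper b) (hb : BlowUp.IsBlowUp b (pt y hy))
    (hyn : IsNoetherianRing (X'.presheaf.stalk y)) (hdim : ringKrullDim (X'.presheaf.stalk y) = 2)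
    (hyp : p' y = IsLocalRing.closedPoint R)
    (hΓ : Models.IsComponentList R (Over.mk p) Γ) (hE : rs (Γ (Fin.last n)) = b ⁻¹' {y}) :
    Models.fibreComponents R (Over.mk p') =
      Set.range (fun i : Fin n => b.base '' rs (Γ i.castSucc)) := by
  have hcov := specialFibreSet_subset hcomm hbp hb hyn hdim hyp hΓ hE
  have key : ∀ S : Set X', IsIrreducible S → S ⊆ Models.specialFibreSet R (Over.mk p') →
      ∃ i : Fin n, S ⊆ b.base '' rs (Γ i.castSucc) := fun S hS hSF =>
    exists_subset_of_finite _ (fun i => isClosed_image hbp _) S hS (hSF.trans hcov)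
  apply subset_antisymm
  · intro Z hZ
    obtain ⟨i, hi⟩ := key Z hZ.1.1 hZ.1.2
    exact ⟨i, subset_antisymm (hZ.2 ⟨isIrreducible_image _, image_subset hcomm _⟩ hi) hi⟩
  · rintro _ ⟨i, rfl⟩
    refine ⟨⟨isIrreducible_image _, image_subset hcomm _⟩, ?_⟩
    rintro S ⟨hS, hSF⟩ hiS
    obtain ⟨j, hj⟩ := key S hS hSF
    have h1 : i = j := eq_of_image_subset hb hΓ hE (hiS.trans hj)
    subst h1
    exact hj

/-- The generic point of the image of a component. -/
theorem genPtOf_eq (hbp : IsProper b) (Δ : ArSurf.VertComp R (Over.mk p)) (Δ' : ArSurf.VertComp R (Over.mk p'))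
    (h : Set.range (Δ'.ι.base : Δ'.curve.left → X') = b.base '' rs Δ) :
    Models.genPtOf R (Over.mk p') Δ' = b (Models.genPtOf R (Over.mk p) Δ) := by
  have h1 : closure {Models.genPtOf R (Over.mk p') Δ'} =
      closure {b (Models.genPtOf R (Over.mk p) Δ)} := by
    rw [closure_genPtOf Δ']
    change Set.range (Δ'.ι.base : Δ'.curve.left → X') = _
    rw [h]
    change b.base '' rg Δ = _
    have h3 := b.isClosedMap.closure_image_eq_of_continuous b.continuous {Models.genPtOf R (Over.mk p) Δ}
    rw [Set.image_singleton] at h3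
    rw [← closure_genPtOf Δ]
    exact h3.symm
  have h2 : Inseparable (Models.genPtOf R (Over.mk p') Δ') (b (Models.genPtOf R (Over.mk p) Δ)) :=
    inseparable_iff_closure_eq.2 h1
  exact h2.eq

/-- **The multiplicities of the components of the contraction.** -/
theorem mult_eq (hcomm : b ≫ p' = p) (hbp : IsProper b) (hb : BlowUp.IsBlowUp b (pt y hy))
    (Δ : ArSurf.VertComp R (Over.mk p)) (Δ' : ArSurf.VertComp R (Over.mk p'))
    (hΔ : b (Models.genPtOf R (Over.mk p) Δ) ≠ y)
    (h : Set.range (Δ'.ι.base : Δ'.curve.left → X') = b.base '' rs Δ) :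
    Models.mult R (Over.mk p') Δ' = Models.mult R (Over.mk p) Δ := by
  change multAt (Over.mk p') (Models.genPtOf R (Over.mk p') Δ') =
    multAt (Over.mk p) (Models.genPtOf R (Over.mk p) Δ)
  rw [genPtOf_eq hbp Δ Δ' h]
  have := isIso_stalkMap hb (Models.genPtOf R (Over.mk p) Δ) hΔ
  exact multAt_eq hcomm _

end Comps

end Groth.Agent.Models.H69.ContrComps
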