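import Groth.Agent.Models.H69.ArtinTate
import Groth.Agent.Divis.BlowChart2
import Groth.Agent.Flat2C.BlowProper
import Groth.Agent.CurvesB.N1OfNormal
import Mathlib.RingTheory.Noetherian.Basic

/-!
# Finite type descends along a blow-up

`locallyOfFiniteType`: let `b : X ⟶ X'` be the blow-up of an integral scheme in a nonzero ideal of finite type and
`p' : X' ⟶ Spec R` a morphism, `R` Noetherian, such that `b ≫ p'` is locally of finite type. Then `p'` is locally of
finite type.
-/

set_option autoImplicit false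
universe u

open CategoryTheory CategoryTheory.Limits AlgebraicGeometry

namespace Groth.Agent.Models.H69.FTDescent

open BlowUp Groth.Agent.Divis.BlowChart Groth.Agent.Divis.BlowChart2

/-- The kernel of `A → Γ(chart)` is `a`-power torsion. -/
theorem exists_pow_mul_eq_zero {X X' : Scheme.{u}} (b : X' ⟶ X) (J : X.IdealSheafData) (U : X.affineOpens)
    (hb : IsBlowUp b J) {a : Γ(X, U.1)} (ha : a ∈ J.ideal U) (x : Γ(X, U.1))
    (hx : (b.appLE U.1 (chart b J U a) (chart_le b J U a)).hom x = 0) : ∃ k : ℕ, a ^ k * x = 0 := by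
  obtain ⟨θ, hθ⟩ := exists_ringEquiv_chart b J U hb ha
  rw [← hθ] at hx
  have h1 : algebraMap Γ(X, U.1) ↥(affineAlgebra Γ(X, U.1) (J.ideal U) a) x = 0 := by
    apply θ.injective
    rw [hx, map_zero]
  have h2 : algebraMap Γ(X, U.1) (Localization.Away a) x = 0 := congrArg Subtype.val h1
  obtain ⟨⟨_, k, rfl⟩, hk⟩ := (IsLocalization.map_eq_zero_iff (Submonoid.powers a) (Localization.Away a) x).1 h2
  exact ⟨k, hk⟩

variable {R : Type u} [CommRing R] [IsNoetherianRing R] {X X' : Scheme.{u}} [IsIntegral X']
  (b : X ⟶ X') (p' : X' ⟶ Spec (CommRingCat.of R)) (J : X'.IdealSheafData)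

theorem finiteType_appLE [IsProper b] [Surjective b] [LocallyOfFiniteType (b ≫ p')]
    (hb : IsBlowUp b J) (U : X'.affineOpens) [Nonempty U.1] (hfg : (J.ideal U).FG) (hne : J.ideal U ≠ ⊥) :
    (p'.appLE ⊤ U.1 le_top).hom.FiniteType := by
  let A := Γ(X', U.1)
  let R₀ := Γ(Spec (CommRingCat.of R), ⊤)
  have : IsNoetherianRing R₀ := isNoetherianRing_of_ringEquiv R
    (Scheme.ΓSpecIso (CommRingCat.of R)).symm.commRingCatIsoToRingEquiv
  let _ : Algebra R₀ A := (p'.appLE ⊤ U.1 le_top).hom.toAlgebra
  obtain ⟨r, c, hc⟩ := Submodule.fg_iff_exists_fin_generating_family.1 hfg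
  have hc' : Ideal.span (Set.range c) = J.ideal U := hc
  have hcU : ∀ j, c j ∈ J.ideal U := fun j => by rw [← hc']; exact Ideal.subset_span (Set.mem_range_self j)
  obtain ⟨B, hB, hint⟩ := ArtinTate.exists_subalgebra_isIntegral (R := R₀) (A := A) c
    (Aj := fun j => Γ(X, chart b J U (c j)))
    (fun j => (b.appLE U.1 (chart b J U (c j)) (chart_le b J U (c j))).hom)
    (by
      intro j
      have h1 : ((b.appLE U.1 (chart b J U (c j)) (chart_le b J U (c j))).hom).comp (algebraMap R₀ A) =
          ((b ≫ p').appLE ⊤ (chart b J U (c j)) le_top).hom := by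
        have := Scheme.Hom.appLE_comp_appLE b p' ⊤ U.1 (chart b J U (c j)) le_top (chart_le b J U (c j))
        exact congrArg CommRingCat.Hom.hom this
      rw [h1]
      exact Scheme.Hom.finiteType_appLE (b ≫ p') (isAffineOpen_top _)
        (isAffineOpen_chart b J U hb (hcU j)) le_top)
    (by
      intro j z
      obtain ⟨n, m, hm, h⟩ := exists_pow_mul_eq_appLE b J U hb (hcU j) z
      exact ⟨n, m, by rw [hc']; exact hm, h⟩)
    (fun j x hx => exists_pow_mul_eq_zero b J U hb (hcU j) x hx)
    (by
      by_contra hcon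
      push Not at hcon
      apply hne
      rw [← hc', Ideal.span_eq_bot]
      rintro _ ⟨j, rfl⟩
      exact hcon j)
  have hBft : Algebra.FiniteType R₀ B := ⟨(Subalgebra.fg_top B).2 hB⟩
  have hBn : IsNoetherianRing B := Algebra.FiniteType.isNoetherianRing R₀ B
  -- the preimage of `U` is proper over `Spec B`
  let W := (b ⁻¹ᵁ U.1).toScheme
  let π : W ⟶ Spec (CommRingCat.of A) := toSpecBase b U
  have hπ : IsProper π := by
    change IsProper ((b ∣_ U.1) ≫ U.2.isoSpec.hom)
    infer_instance
  have hπs : Surjective π := by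
    have : Surjective (b ∣_ U.1) := IsZariskiLocalAtTarget.restrict (P := @Surjective) ‹_› U.1
    change Surjective ((b ∣_ U.1) ≫ U.2.isoSpec.hom)
    infer_instance
  let β : W ⟶ Spec (CommRingCat.of B) := π ≫ Spec.map (CommRingCat.ofHom (algebraMap B A))
  have hint' : IsIntegralHom (Spec.map (CommRingCat.ofHom (algebraMap B A))) := by
    rw [IsIntegralHom.SpecMap_iff]
    exact hint
  have hβcomp : β ≫ Spec.map (CommRingCat.ofHom (algebraMap R₀ B)) ≫
      (Scheme.isoSpec (Spec (CommRingCat.of R))).inv = (b ⁻¹ᵁ U.1).ι ≫ b ≫ p' := by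
    have h1 : Spec.map (CommRingCat.ofHom (algebraMap B A)) ≫ Spec.map (CommRingCat.ofHom (algebraMap R₀ B)) =
        Spec.map (p'.appLE ⊤ U.1 le_top) := by
      rw [← Spec.map_comp]
      rfl
    have h2 : Spec.map (p'.appLE ⊤ U.1 le_top) ≫ (Scheme.isoSpec (Spec (CommRingCat.of R))).inv =
        U.2.fromSpec ≫ p' := by
      have := IsAffineOpen.SpecMap_appLE_fromSpec p' (isAffineOpen_top (Spec (CommRingCat.of R))) U.2 le_top
      rw [← this, IsAffineOpen.fromSpec_top]
    change (π ≫ Spec.map (CommRingCat.ofHom (algebraMap B A))) ≫ _ = _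
    rw [Category.assoc, reassoc_of% h1, h2, ← Category.assoc, toSpecBase_fromSpec, Category.assoc]
  have hβlft : LocallyOfFiniteType β := by
    have h1 : LocallyOfFiniteType (β ≫ Spec.map (CommRingCat.ofHom (algebraMap R₀ B)) ≫
        (Scheme.isoSpec (Spec (CommRingCat.of R))).inv) := by
      rw [hβcomp]
      infer_instance
    exact locallyOfFiniteType_of_comp β (Spec.map (CommRingCat.ofHom (algebraMap R₀ B)) ≫
        (Scheme.isoSpec (Spec (CommRingCat.of R))).inv)
  have hβ : IsProper β := { }
  have hfin := CurvesB.N1OfNormal.finite_glob B W β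
  have hA : IsDomain A := inferInstance
  have hinj := CurvesB.N1OfNormal.glob_injective A W π inferInstance
  have hcomp : CurvesB.N1OfNormal.glob β = (CurvesB.N1OfNormal.glob π).comp (algebraMap B A) :=
    glob_map (algebraMap B A) π
  -- hence `A` is finite over `B`
  let _ : Algebra B Γ(W, ⊤) := (CurvesB.N1OfNormal.glob β).toAlgebra
  have hfin' : Module.Finite B Γ(W, ⊤) := hfin
  let ψ : A →ₗ[B] Γ(W, ⊤) :=
    { toFun := CurvesB.N1OfNormal.glob π
      map_add' := map_add _
      map_smul' := fun t x => by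
        rw [Algebra.smul_def, map_mul, RingHom.id_apply, Algebra.smul_def]
        congr 1
        exact congr($hcomp t).symm }
  have hAfin : Module.Finite B A := Module.Finite.of_injective ψ hinj
  have hAft : Algebra.FiniteType R₀ A := Algebra.FiniteType.trans (S := B) hBft inferInstance
  exact hAft

/-- Finite type descends along a blow-up in a nonzero ideal of finite type of an integral scheme. -/
theorem locallyOfFiniteType [IsProper b] [Surjective b] [LocallyOfFiniteType (b ≫ p')]
    (hb : IsBlowUp b J) (hJ : IsFiniteTypeIdeal J) (hJ0 : J ≠ ⊥) : LocallyOfFiniteType p' := by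
  refine HasRingHomProperty.of_iSup_eq_top (P := @LocallyOfFiniteType) (ι := X'.affineOpens) id
    (iSup_affineOpens_eq_top X') fun U => ?_
  change (p'.appLE ⊤ U.1 le_top).hom.FiniteType
  by_cases hU : Nonempty U.1
  · refine finiteType_appLE b p' J hb U (hJ U) fun h0 => hJ0 ?_
    rw [← Scheme.IdealSheafData.support_eq_top_iff]
    apply TopologicalSpace.Closeds.ext
    refine Set.eq_univ_of_univ_subset ?_
    rw [← (U.1.isOpen.dense ⟨hU.some.1, hU.some.2⟩).closure_eq]
    refine closure_minimal (fun x hx => ?_) J.support.isClosed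
    rw [SetLike.mem_coe, Scheme.IdealSheafData.mem_support_iff_of_mem hx, h0]
    simp
  · have : Subsingleton Γ(X', U.1) := by
      have h1 : U.1 = ⊥ := by
        ext x
        constructor
        · intro hx; exact absurd ⟨⟨x, hx⟩⟩ hU
        · intro hx; exact absurd hx (by simp)
      rw [h1]
      infer_instance
    exact RingHom.FiniteType.of_surjective _ (Function.surjective_to_subsingleton _)

end Groth.Agent.Models.H69.FTDescent
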