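import Groth.Agent.Models.H69.Contr
import Groth.Agent.Models.H69.FTDescent
import Groth.Agent.Models.H64.RegInt
import Groth.Agent.Etrest.ProperOver
import Groth.Agent.Dix.IdealQuot
import Groth.Prelude.Def_ModelsG

/-!
# The contraction of a regular proper model is a regular proper model

`isRegularProperModel`: let `X` be a regular proper model of `C`, `ι : E ⟶ X` a closed subscheme of the closed fibre
and `b : X ⟶ X'` a contraction of `E` over `R`. Then `X'` is a regular proper model of `C`, with generic fibre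
inclusion `g ≫ b`.
-/

set_option autoImplicit false
universe u

open CategoryTheory CategoryTheory.Limits AlgebraicGeometry

namespace Groth.Agent.Models.H69.ContrModel

open Groth.Agent.Dix.PointIdeal Groth.Agent.Models.H69.Contr

section

variable {R : Type u} [CommRing R] [IsDomain R] [IsDiscreteValuationRing R]
  {C X X' : Scheme.{u}} {f : C ⟶ Spec (CommRingCat.of (FractionRing R))} {p : X ⟶ Spec (CommRingCat.of R)}
  {p' : X' ⟶ Spec (CommRingCat.of R)} {b : X ⟶ X'} {y : X'} {hy : IsClosed ({y} : Set X')}

lemma pt_ne_bot (hne : ∃ z, z ≠ y) : pt y hy ≠ ⊥ := by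
  intro h
  obtain ⟨z, hz⟩ := hne
  apply hz
  rw [← mem_support_pt y hy, h, Scheme.IdealSheafData.support_bot]
  exact Set.mem_univ z

lemma isFiniteTypeIdeal_pt [IsLocallyNoetherian X'] : BlowUp.IsFiniteTypeIdeal (pt y hy) :=
  fun U => Dix.IdealQuot.fg_of_isLocallyNoetherian (pt y hy) U

theorem isProper_target [IsIntegral X'] [IsLocallyNoetherian X'] [IsProper p] (hcomm : b ≫ p' = p)
    [IsProper b] [Surjective b] (hb : BlowUp.IsBlowUp b (pt y hy)) (hne : ∃ z, z ≠ y) : IsProper p' := by
  have h1 : IsProper (b ≫ p') := by rw [hcomm]; infer_instance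
  have h2 : LocallyOfFiniteType p' :=
    FTDescent.locallyOfFiniteType b p' (pt y hy) hb isFiniteTypeIdeal_pt (pt_ne_bot hne)
  exact Etrest.ProperOver.isProper_of_surjective b p'

theorem isRegularScheme_target (hreg : Models.IsRegularScheme X) (hb : BlowUp.IsBlowUp b (pt y hy))
    (hy' : IsRegularLocalRing (X'.presheaf.stalk y)) : Models.IsRegularScheme X' := by
  intro z
  by_cases hz : z = y
  · rw [hz]; exact hy'
  · obtain ⟨x, rfl⟩ := exists_apply_eq hb z hz
    have := isIso_compl y hy hb
    exact Dix.ContractSurf.isRegularLocalRing_stalk b (compl y hy) x hz (hreg x)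

theorem flat_target [IsIntegral X'] [Flat p] (hcomm : b ≫ p' = p) [Surjective b] : Flat p' := by
  have h1 : Flat (b ≫ p') := by rw [hcomm]; infer_instance
  exact Dix.ContractSurf.flat_of_dominant b p'

/-- A morphism that is an isomorphism over an open containing the image of `t` becomes an isomorphism after base
change along `t`. -/
theorem isIso_of_isPullback {P Q : Scheme.{u}} {s : Q ⟶ X} {k : Q ⟶ P} {t : P ⟶ X'} (h : IsPullback s k b t)
    (U : X'.Opens) [IsIso (b ∣_ U)] (ht : Set.range t ⊆ U) : IsIso k := by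
  have ht' : Set.range t ⊆ Set.range U.ι := by rwa [Scheme.Opens.range_ι]
  let t₀ := IsOpenImmersion.lift U.ι t ht'
  have ht₀ : t₀ ≫ U.ι = t := IsOpenImmersion.lift_fac _ _ _
  have h1 : IsPullback (b ⁻¹ᵁ U).ι (b ∣_ U) b U.ι := (isPullback_morphismRestrict b U).flip
  have hs : (s ≫ b) = (k ≫ t₀) ≫ U.ι := by rw [h.w, Category.assoc, ht₀]
  let s₀ : Q ⟶ b ⁻¹ᵁ U := h1.lift s (k ≫ t₀) hs
  have hs₀ : s₀ ≫ (b ⁻¹ᵁ U).ι = s := h1.lift_fst _ _ _
  have hs₀' : s₀ ≫ (b ∣_ U) = k ≫ t₀ := h1.lift_snd _ _ _
  have h2 : IsPullback s₀ k (b ∣_ U) t₀ := by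
    refine IsPullback.of_right ?_ hs₀' h1
    rw [hs₀, ht₀]
    exact h
  exact h2.isIso_snd_of_isIso

/-- The generic fibre of the contraction. -/
theorem isPullback_target {g : C ⟶ X}
    (hg : IsPullback g f p (Spec.map (CommRingCat.ofHom (algebraMap R (FractionRing R)))))
    (hcomm : b ≫ p' = p) (hb : BlowUp.IsBlowUp b (pt y hy)) (hyp : p' y = IsLocalRing.closedPoint R) :
    IsPullback (g ≫ b) f p' (Spec.map (CommRingCat.ofHom (algebraMap R (FractionRing R)))) := by
  let j := Spec.map (CommRingCat.ofHom (algebraMap R (FractionRing R)))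
  have hw : (g ≫ b) ≫ p' = f ≫ j := by rw [Category.assoc, hcomm]; exact hg.w
  let k : C ⟶ pullback p' j := pullback.lift (g ≫ b) f hw
  have hk1 : k ≫ pullback.fst p' j = g ≫ b := pullback.lift_fst _ _ _
  have hk2 : k ≫ pullback.snd p' j = f := pullback.lift_snd _ _ _
  have h1 : IsPullback g k b (pullback.fst p' j) := by
    refine IsPullback.of_bot ?_ hk1.symm (IsPullback.of_hasPullback p' j)
    rw [hk2, hcomm]
    exact hg
  have hiso := isIso_compl y hy hb
  have hk : IsIso k := by
    refine isIso_of_isPullback h1 (compl y hy) ?_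
    rintro _ ⟨z, rfl⟩ hz
    have hz' : pullback.fst p' j z = y := hz
    have h2 : p' (pullback.fst p' j z) = j (pullback.snd p' j z) := by
      rw [← Scheme.Hom.comp_apply, pullback.condition, Scheme.Hom.comp_apply]
    rw [hz', hyp] at h2
    have h3 : (pullback.snd p' j z : PrimeSpectrum (FractionRing R)).asIdeal = ⊥ := by
      have := (pullback.snd p' j z : PrimeSpectrum (FractionRing R)).isPrime
      exact (eq_bot_or_eq_top _).resolve_right this.ne_top
    have h4 : (IsLocalRing.closedPoint R : PrimeSpectrum R).asIdeal =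
        (pullback.snd p' j z : PrimeSpectrum (FractionRing R)).asIdeal.comap
          (algebraMap R (FractionRing R)) := congrArg PrimeSpectrum.asIdeal h2
    rw [h3, ← RingHom.ker_eq_comap_bot,
      (RingHom.injective_iff_ker_eq_bot _).mp (IsFractionRing.injective R (FractionRing R))] at h4
    exact IsDiscreteValuationRing.not_a_field R h4
  exact IsPullback.of_iso_pullback ⟨hw⟩ (asIso k) hk1 hk2

/-- **The contraction of a regular proper model is a regular proper model.** -/
theorem isRegularProperModel [IsIntegral C] (hX : Models.IsRegularProperModel R X p C f) {g : C ⟶ X}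
    (hg : IsPullback g f p (Spec.map (CommRingCat.ofHom (algebraMap R (FractionRing R)))))
    {E : Scheme.{u}} (ι : E ⟶ X) (hE : ∀ e : E, p (ι e) = IsLocalRing.closedPoint R)
    (hb : Models.IsContractionOf ι b) (hcomm : b ≫ p' = p) :
    Models.IsRegularProperModel R X' p' C f ∧
      IsPullback (g ≫ b) f p' (Spec.map (CommRingCat.ofHom (algebraMap R (FractionRing R)))) ∧
      IsIntegral X' := by
  obtain ⟨⟨hflat, hft, hqc, -⟩, hproper, hreg⟩ := hX
  obtain ⟨hnoeth, hbp, y, hy, hrange, hyreg, hydim, hbl⟩ := hb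
  have hbl' : BlowUp.IsBlowUp b (pt y hy) := hbl
  have hXint : IsIntegral X := Models.H64.RegInt.isIntegral hg hreg
  obtain ⟨e, he⟩ : ∃ e : E, b (ι e) = y := by
    have h1 : y ∈ Set.range (ι ≫ b) := by
      have : y ∈ Set.range ((ι ≫ b).base : E → X') := by rw [hrange]; rfl
      exact this
    obtain ⟨e, he⟩ := h1
    exact ⟨e, he⟩
  have hsurj : Surjective b := surjective hbl' ⟨_, he⟩
  have hdomain : IsDomain (X'.presheaf.stalk y) := CalgA.RegBasic.isDomain _
  have hX'int : IsIntegral X' := isIntegral_target hbl' hdomain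
  have hyp : p' y = IsLocalRing.closedPoint R := by
    rw [← he, ← Scheme.Hom.comp_apply, hcomm]
    exact hE e
  have hne : ∃ z, z ≠ y := by
    by_contra hcon
    push Not at hcon
    obtain ⟨c⟩ : Nonempty C := inferInstance
    have h1 : b (g c) = y := hcon _
    have h2 : p (g c) = IsLocalRing.closedPoint R := by
      rw [← hcomm, Scheme.Hom.comp_apply, h1, hyp]
    have h3 := isPullback_target hg hcomm hbl' hyp
    have h4 : p (g c) = (Spec.map (CommRingCat.ofHom (algebraMap R (FractionRing R)))) (f c) := by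
      rw [← Scheme.Hom.comp_apply, hg.w, Scheme.Hom.comp_apply]
    rw [h2] at h4
    have h5 : (f c : PrimeSpectrum (FractionRing R)).asIdeal = ⊥ := by
      have := (f c : PrimeSpectrum (FractionRing R)).isPrime
      exact (eq_bot_or_eq_top _).resolve_right this.ne_top
    have h6 : (IsLocalRing.closedPoint R : PrimeSpectrum R).asIdeal =
        (f c : PrimeSpectrum (FractionRing R)).asIdeal.comap
          (algebraMap R (FractionRing R)) := congrArg PrimeSpectrum.asIdeal h4
    rw [h5, ← RingHom.ker_eq_comap_bot,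
      (RingHom.injective_iff_ker_eq_bot _).mp (IsFractionRing.injective R (FractionRing R))] at h6
    exact IsDiscreteValuationRing.not_a_field R h6
  have hX'proper : IsProper p' := isProper_target hcomm hbl' hne
  have hpb := isPullback_target hg hcomm hbl' hyp
  refine ⟨⟨⟨flat_target hcomm, inferInstance, inferInstance, g ≫ b, hpb⟩, hX'proper,
    isRegularScheme_target hreg hbl' hyreg⟩, hpb, hX'int⟩

end

end Groth.Agent.Models.H69.ContrModel
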