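import Groth.Agent.Dix.InterSurf

/-!
# Intersection numbers on schemes proper over a discrete valuation ring

The results of `Groth.Agent.Dix.InterSurf` with the hypothesis `ArSurf.IsArithSurface R X` weakened to
`IsProper X.hom`.
-/

set_option autoImplicit false
universe u

open CategoryTheory CategoryTheory.Limits AlgebraicGeometry Opposite TopologicalSpace

namespace Groth.Agent.Models.H69.InterP

open Groth.Agent.Dix.IdealModCartier Groth.Agent.Dix.InterNum Groth.Agent.Dix.VertGeom
open Groth.Agent.Divis.EffCartier Groth.Agent.Divis.IdealComap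
open Groth.Agent.Dix.IdealQuot
open Groth.Agent.Dix.InterSurf (isEff_comap_of_generic dd gp hz)

section Surf

variable {R : Type u} [CommRing R] [IsDomain R] [IsDiscreteValuationRing R]

variable {X : Over (Spec (CommRingCat.of R))}

lemma isProper_curve [IsProper X.hom] (Γ : ArSurf.VertComp R X) :
    IsProper (Γ.curve.left ↘ Spec (CommRingCat.of (IsLocalRing.ResidueField R))) := by
  have h1 : IsProper (Γ.curve.hom ≫ Spec.map (CommRingCat.ofHom (IsLocalRing.residue R))) := by
    rw [← Γ.w]
    infer_instance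
  have h2 : IsSeparated (Spec.map (CommRingCat.ofHom (IsLocalRing.residue R))) := inferInstance
  exact IsProper.of_comp Γ.curve.hom (Spec.map (CommRingCat.ofHom (IsLocalRing.residue R)))

lemma inter_eq [IsProper X.hom] (L : X.left.Modules) (Γ : ArSurf.VertComp R X) :
    ArSurf.inter R X L Γ = Curv2.deg (IsLocalRing.ResidueField R) Γ.curve.left
      ((Scheme.Modules.pullback Γ.ι).obj L) 1 := by
  have := isProper_curve Γ
  exact curveDeg_eq _ _ Γ.dim_eq _

lemma inter_congr [IsProper X.hom] {L L' : X.left.Modules} (e : L ≅ L')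
    (Γ : ArSurf.VertComp R X) : ArSurf.inter R X L Γ = ArSurf.inter R X L' Γ := by
  have := isProper_curve Γ
  rw [inter_eq, inter_eq]
  exact deg_congr _ _ Γ.dim_eq ((Scheme.Modules.pullback Γ.ι).mapIso e)

lemma inter_unit [IsProper X.hom] (Γ : ArSurf.VertComp R X) :
    ArSurf.inter R X (Coh.structureModule X.left) Γ = 0 := by
  have := isProper_curve Γ
  rw [inter_eq, deg_congr _ _ Γ.dim_eq (CurvesA.HHMap.pullbackUnit Γ.ι), deg_unit]

lemma inter_tensor [IsProper X.hom] {L M : X.left.Modules}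
    (hL : PicF.IsInvertible L) (hM : PicF.IsInvertible M) (Γ : ArSurf.VertComp R X) :
    ArSurf.inter R X (CohB1.tensorMod L M) Γ = ArSurf.inter R X L Γ + ArSurf.inter R X M Γ := by
  have := isProper_curve Γ
  obtain ⟨e⟩ := pullback_tensorMod Γ.ι hL hM
  rw [inter_eq, inter_eq, inter_eq, deg_congr _ _ Γ.dim_eq e]
  exact deg_tensor _ _ Γ.dim_eq (Fdesc.LocGen.isInvertible_pullback Γ.ι hL)
    (Fdesc.LocGen.isInvertible_pullback Γ.ι hM)

lemma inter_inverse [IsProper X.hom] {L M : X.left.Modules}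
    (h : ClSub.IsInverseOf L M) (Γ : ArSurf.VertComp R X) :
    ArSurf.inter R X L Γ = - ArSurf.inter R X M Γ := by
  obtain ⟨hL, hM⟩ := isInvertible_of_isInverseOf h
  obtain ⟨e⟩ := h
  have h1 := inter_tensor hL hM Γ
  rw [inter_congr e, inter_unit] at h1
  linarith

lemma dd_mul [IsProper X.hom] (Γ : ArSurf.VertComp R X) {D E : X.left.IdealSheafData}
    (hD : BlowUp.IsEffCartierIdeal D) (hE : BlowUp.IsEffCartierIdeal E) :
    dd Γ (D * E) = dd Γ D + dd Γ E := by
  obtain ⟨e⟩ := idealMod_mul hD hE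
  unfold dd
  rw [← inter_congr e, inter_tensor (isInvertible_idealMod hD) (isInvertible_idealMod hE)]

lemma dd_one [IsProper X.hom] (Γ : ArSurf.VertComp R X) :
    dd Γ (1 : X.left.IdealSheafData) = 0 := by
  have h : BlowUp.IsEffCartierIdeal (1 : X.left.IdealSheafData) := by
    rw [Scheme.IdealSheafData.one_eq_top]; exact isEff_top
  have := dd_mul Γ h h
  rw [one_mul] at this
  linarith

lemma dd_pow [IsProper X.hom] (Γ : ArSurf.VertComp R X) {D : X.left.IdealSheafData}
    (hD : BlowUp.IsEffCartierIdeal D) (n : ℕ) : dd Γ (D ^ n) = n * dd Γ D := by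
  induction n with
  | zero => simpa using dd_one Γ
  | succ n ih => rw [pow_succ, dd_mul Γ (isEff_pow hD n) hD, ih]; push_cast; ring

lemma dd_prod [IsProper X.hom] (Γ : ArSurf.VertComp R X) {ι : Type*}
    (P : ι → X.left.IdealSheafData) (hP : ∀ i, BlowUp.IsEffCartierIdeal (P i)) (S : Finset ι)
    (d : ι → ℕ) : dd Γ (∏ i ∈ S, P i ^ d i) = ∑ i ∈ S, (d i : ℤ) * dd Γ (P i) := by
  classical
  induction S using Finset.induction_on with
  | empty => simpa using dd_one Γ
  | insert t S htS ih =>
    rw [Finset.prod_insert htS, Finset.sum_insert htS, dd_mul Γ (isEff_pow (hP t) _)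
      (isEff_prod P hP S d), dd_pow Γ (hP t), ih]

/-- Intersection number with an effective divisor not containing the component. -/
theorem dd_eq [IsProper X.hom] (Γ : ArSurf.VertComp R X) {D : X.left.IdealSheafData}
    (hD : BlowUp.IsEffCartierIdeal D) (h : gp Γ ∉ D.support) : dd Γ D = - (hz Γ D : ℤ) := by
  have := isProper_curve Γ
  have hD' := isEff_comap_of_generic Γ.ι hD h
  obtain ⟨e⟩ := pullback_idealMod Γ.ι hD hD'
  obtain ⟨N, -, ⟨f⟩⟩ := Grpsch.PicGrp.exists_inverse (isInvertible_idealMod hD')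
  have hinv : ClSub.IsInverseOf N (ClSub.idealMod (D.comap Γ.ι)) := ⟨Ega2.Tens.swap _ _ ≪≫ f⟩
  have h1 := deg_of_effCartier (IsLocalRing.ResidueField R) Γ.curve.left Γ.dim_eq _ hD' N hinv
  have h2 := deg_inverse (IsLocalRing.ResidueField R) Γ.curve.left Γ.dim_eq hinv
  unfold dd
  rw [inter_eq, deg_congr _ _ Γ.dim_eq e, hz]
  rw [finrank_quotMod] at h1
  rw [h2] at h1
  exact neg_eq_iff_eq_neg.1 h1

end Surf

end Groth.Agent.Models.H69.InterP
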